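import Mathlib
import Cfsg.Agent.PrimeDegree.Degree

/-!
Degree seven.
-/

set_option autoImplicit false

namespace CfsgLib.PrimeDegree

private theorem arith_seven : ∀ n : ℕ, n < 361 → ∀ d : ℕ, d < 7 → n % 7 = 1 ∧ n ≠ 1 ∧ d ∣ 6 ∧ d ≠ 1 ∧
    n * d ∣ 720 ∧ ¬ 16 ∣ n * d ∧ ¬ 9 ∣ n * d → n * d = 24 ∨ n * d = 30 := by decide +kernel

theorem card_seven {α : Type*} [Fintype α] [DecidableEq α] (hα : Fintype.card α = 7)
    (G : Subgroup (Equiv.Perm α)) [MulAction.IsPretransitive G α] (hG : ¬ Group.IsSolvable G)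
    (hA : ¬ alternatingGroup α ≤ G) : Nat.card G = 168 := by
  haveI : Fact (Nat.Prime 7) := ⟨by norm_num⟩
  obtain ⟨n, d, hcard, hn, hn1, hd, hd1, -⟩ := sylow_counts (p := 7) hα G hG default
  have hdvd : Nat.card G ∣ 5040 := by
    have := Subgroup.card_subgroup_dvd_card G
    rwa [Nat.card_eq_fintype_card (α := Equiv.Perm α), Fintype.card_perm, hα] at this
  have h16 : ¬ 2 ^ 4 ∣ Nat.card G := not_two_pow_dvd (p := 7) hα G hA (by decide)
  have h9 : ¬ 3 ^ 2 ∣ Nat.card G := not_three_pow_dvd (p := 7) hα (by norm_num) G hA (by decide)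
  rw [hcard] at hdvd h16 h9
  have hnd : n * d ∣ 720 := Nat.dvd_of_mul_dvd_mul_left (by norm_num) (show 7 * (n * d) ∣ 7 * 720 from hdvd)
  have hd0 : d < 7 := lt_of_le_of_lt (Nat.le_of_dvd (by norm_num) hd) (by norm_num)
  have hd2 : 2 ≤ d := by
    rcases Nat.eq_zero_or_pos d with h | h
    · subst h; simp at hd
    · omega
  have hn360 : n < 361 := by
    have h1 := Nat.le_of_dvd (by norm_num) hnd
    have : n * 2 ≤ n * d := Nat.mul_le_mul_left n hd2
    omega
  rcases arith_seven n hn360 d hd0 ⟨hn, hn1, hd, hd1, hnd, fun h => h16 (dvd_mul_of_dvd_right h 7),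
      fun h => h9 (dvd_mul_of_dvd_right h 7)⟩ with h | h
  · rw [hcard, h]
  · exfalso
    have h210 : Squarefree (Nat.card G) := by
      rw [hcard, h, Nat.squarefree_iff_nodup_primeFactorsList (by norm_num)]
      simp
    haveI := IsZGroup.of_squarefree h210
    exact hG inferInstance

theorem simple_seven {α : Type*} [Fintype α] [DecidableEq α] (hα : Fintype.card α = 7)
    (G : Subgroup (Equiv.Perm α)) [MulAction.IsPretransitive G α] (hG : ¬ Group.IsSolvable G)
    (hA : ¬ alternatingGroup α ≤ G) : Nat.card G = 168 ∧ IsSimpleGroup G := by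
  haveI : Fact (Nat.Prime 7) := ⟨by norm_num⟩
  have hc := card_seven hα G hG hA
  haveI : Nontrivial G := Finite.one_lt_card_iff_nontrivial.mp (by rw [hc]; norm_num)
  refine ⟨hc, ⟨fun N hN => ?_⟩⟩
  by_cases hN1 : N = ⊥
  · exact Or.inl hN1
  refine Or.inr ?_
  obtain ⟨hT, hS⟩ := normal_facts (p := 7) hα G hG N hN hN1
  have h := card_seven hα (N.map G.subtype) hS (fun h => hA (h.trans (Subgroup.map_subtype_le N)))
  rw [Subgroup.card_map_of_injective G.subtype_injective] at h
  exact Subgroup.eq_top_of_card_eq N (h.trans hc.symm)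

end CfsgLib.PrimeDegree
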